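import Mathlib.Algebra.BigOperators.Fin
import Mathlib.Algebra.BigOperators.Ring.Finset
import Mathlib.Algebra.Order.BigOperators.Group.Finset
import Mathlib.Algebra.GCDMonoid.Finset
import Mathlib.Algebra.GCDMonoid.Nat
import Mathlib.Data.Fin.Tuple.Basic
import Mathlib.Data.Rat.Lemmas
import Mathlib.Tactic.Linarith
import Mathlib.Tactic.Ring
import Mathlib.Tactic.FieldSimp
import Mathlib.Tactic.Positivity

/-!
# Chains of effective divisors between the reduced fibre and the primitive fibre (combinatorics)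
-/

set_option autoImplicit false

namespace Groth.Agent.ModelsG.H46.Chain

open Finset

/-- Building a chain from a one-step extension property. -/
theorem exists_chain {n : ℕ} (e : Fin n → ℕ) (P : (Fin n → ℕ) → Prop)
    (step : ∀ b : Fin n → ℕ, b ≤ e → b ≠ e → P b → ∃ i, b i < e i ∧ P (b + Pi.single i 1)) :
    ∀ (N : ℕ) (b : Fin n → ℕ), b ≤ e → ∑ i, (e i - b i) = N → P b →
      ∃ (s : ℕ) (a : Fin (s + 1) → Fin n → ℕ), a 0 = b ∧ a (Fin.last s) = e ∧
        (∀ j : Fin s, ∃ i, a j.succ = a j.castSucc + Pi.single i 1) ∧ ∀ j, P (a j) := by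
  intro N
  induction N with
  | zero =>
    intro b hb hN hP
    have hbe : b = e := by
      funext i
      have h1 : e i - b i = 0 := (Finset.sum_eq_zero_iff.1 hN) i (Finset.mem_univ i)
      have h2 : b i ≤ e i := hb i
      omega
    subst hbe
    exact ⟨0, fun _ => b, rfl, rfl, fun j => j.elim0, fun _ => hP⟩
  | succ N ih =>
    intro b hb hN hP
    have hbe : b ≠ e := by
      rintro rfl
      simp at hN
    obtain ⟨i, hi, hPi⟩ := step b hb hbe hP
    have hb' : (b + Pi.single i 1 : Fin n → ℕ) ≤ e := by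
      intro k
      by_cases hk : k = i
      · subst hk
        have : b k + 1 ≤ e k := hi
        simpa using this
      · simpa [Pi.single_eq_of_ne hk] using hb k
    have hN' : ∑ k, (e k - (b + Pi.single i 1 : Fin n → ℕ) k) = N := by
      have h1 : ∀ k, e k - b k = (e k - (b + Pi.single i 1 : Fin n → ℕ) k) +
          (Pi.single i 1 : Fin n → ℕ) k := by
        intro k
        by_cases hk : k = i
        · subst hk
          simp only [Pi.add_apply, Pi.single_eq_same]
          omega
        · simp [Pi.single_eq_of_ne hk]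
      have h2 : ∑ k, (e k - b k) = ∑ k, (e k - (b + Pi.single i 1 : Fin n → ℕ) k) + 1 := by
        rw [Finset.sum_congr rfl fun k _ => h1 k, Finset.sum_add_distrib]
        congr 1
        exact (Finset.sum_pi_single' i 1 Finset.univ).trans (by simp)
      omega
    obtain ⟨s, a, h0, hl, hst, hPa⟩ := ih _ hb' hN' hPi
    refine ⟨s + 1, Fin.cons b a, rfl, ?_, ?_, ?_⟩
    · rw [← Fin.succ_last, Fin.cons_succ]
      exact hl
    · intro j
      refine Fin.cases ?_ (fun j => ?_) j
      · refine ⟨i, ?_⟩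
        rw [Fin.cons_succ, h0]
        rfl
      · obtain ⟨k, hk⟩ := hst j
        refine ⟨k, ?_⟩
        rw [Fin.cons_succ, hk, Fin.castSucc_succ, Fin.cons_succ]
    · intro j
      refine Fin.cases hP (fun j => ?_) j
      simpa using hPa j

/-- The numerical step: strictly below the primitive fibre some component meets the divisor positively
and can be added. -/
theorem exists_pos {n : ℕ} (m : Fin n → ℕ) (hm : ∀ i, 0 < m i) (A : Fin n → Fin n → ℤ)
    (hsum : ∀ j, ∑ i, (m i : ℤ) * A i j = 0)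
    (hneg : ∀ z : Fin n → ℤ, ∑ q : Fin n × Fin n, z q.1 * z q.2 * A q.1 q.2 = 0 →
      ∃ c : ℚ, ∀ i, (z i : ℚ) = c * (m i : ℚ))
    (hle : ∀ z : Fin n → ℤ, ∑ q : Fin n × Fin n, z q.1 * z q.2 * A q.1 q.2 ≤ 0)
    (b : Fin n → ℕ) (hb1 : ∀ i, 1 ≤ b i) (hb : ∀ i, b i ≤ m i / Finset.univ.gcd m)
    (hne : b ≠ fun i => m i / Finset.univ.gcd m) :
    ∃ i, b i < m i / Finset.univ.gcd m ∧ 0 < ∑ k, (b k : ℤ) * A k i := by
  set d := Finset.univ.gcd m with hd
  have hdvd : ∀ i, d ∣ m i := fun i => Finset.gcd_dvd (Finset.mem_univ i)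
  obtain ⟨i0, hi0⟩ : ∃ i, b i ≠ m i / d := by
    by_contra h
    push Not at h
    exact hne (funext h)
  have hd0 : 0 < d := Nat.pos_of_ne_zero fun h => by
    have := hdvd i0
    rw [h, zero_dvd_iff] at this
    exact (hm i0).ne' this
  by_contra hcon
  push Not at hcon
  -- z = e - b
  let z : Fin n → ℤ := fun i => ((m i / d : ℕ) : ℤ) - (b i : ℤ)
  have hz0 : ∀ i, 0 ≤ z i := fun i => by
    have := hb i
    simp only [z]; omega
  have hesum : ∀ j, ∑ i, ((m i / d : ℕ) : ℤ) * A i j = 0 := by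
    intro j
    have h1 : (d : ℤ) * ∑ i, ((m i / d : ℕ) : ℤ) * A i j = 0 := by
      rw [Finset.mul_sum, ← hsum j]
      refine Finset.sum_congr rfl fun i _ => ?_
      rw [← mul_assoc]
      congr 1
      exact_mod_cast Nat.mul_div_cancel' (hdvd i)
    have : (d : ℤ) ≠ 0 := by exact_mod_cast hd0.ne'
    exact (mul_eq_zero.1 h1).resolve_left this
  have hzA : ∀ i, 0 < z i → 0 ≤ ∑ k, z k * A k i := by
    intro i hi
    have h1 : b i < m i / d := by simp only [z] at hi; omega
    have h2 := hcon i h1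
    have h3 : ∑ k, z k * A k i = - ∑ k, (b k : ℤ) * A k i := by
      simp only [z, sub_mul, Finset.sum_sub_distrib]
      rw [hesum i]; ring
    rw [h3]; linarith
  have hquad : ∑ q : Fin n × Fin n, z q.1 * z q.2 * A q.1 q.2 = 0 := by
    apply le_antisymm (hle z)
    rw [Fintype.sum_prod_type_right]
    refine Finset.sum_nonneg fun i _ => ?_
    have h1 : ∑ k, z k * z i * A k i = z i * ∑ k, z k * A k i := by
      rw [Finset.mul_sum]
      exact Finset.sum_congr rfl fun k _ => by ring
    rw [h1]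
    rcases (hz0 i).lt_or_eq with h | h
    · exact mul_nonneg (hz0 i) (hzA i h)
    · rw [← h]; simp
  obtain ⟨c, hc⟩ := hneg z hquad
  -- c * d is an integer
  have hcd : ∃ t : ℤ, c * (d : ℚ) = t := by
    have hgen : ∀ S : Finset (Fin n), ∃ t : ℤ, c * ((S.gcd m : ℕ) : ℚ) = t := by
      classical
      intro S
      induction S using Finset.induction_on with
      | empty => exact ⟨0, by simp⟩
      | insert i S hiS ih =>
        obtain ⟨t, ht⟩ := ih
        rw [Finset.gcd_insert]
        have hb := Nat.gcd_eq_gcd_ab (m i) (S.gcd m)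
        refine ⟨Nat.gcdA (m i) (S.gcd m) * z i + Nat.gcdB (m i) (S.gcd m) * t, ?_⟩
        have h1 : ((GCDMonoid.gcd (m i) (S.gcd m) : ℕ) : ℚ) =
            (m i : ℚ) * (Nat.gcdA (m i) (S.gcd m) : ℚ) +
              ((S.gcd m : ℕ) : ℚ) * (Nat.gcdB (m i) (S.gcd m) : ℚ) := by
          have h2 : (GCDMonoid.gcd (m i) (S.gcd m) : ℕ) = Nat.gcd (m i) (S.gcd m) := rfl
          rw [h2]
          exact_mod_cast hb
        rw [h1]
        push_cast
        rw [hc i, ← ht]
        ring
    exact hgen Finset.univ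
  obtain ⟨t, ht⟩ := hcd
  have hi0lt : b i0 < m i0 / d := lt_of_le_of_ne (hb i0) hi0
  have hmi0 : (0 : ℚ) < (m i0 : ℚ) := by exact_mod_cast hm i0
  have hzi0 : (0 : ℚ) < (z i0 : ℚ) := by
    have : 0 < z i0 := by simp only [z]; omega
    exact_mod_cast this
  have hcpos : 0 < c := by
    rw [hc i0] at hzi0
    exact (pos_iff_pos_of_mul_pos hzi0).2 hmi0
  have hdQ : (0 : ℚ) < (d : ℚ) := by exact_mod_cast hd0
  have htpos : 0 < t := by
    have : (0 : ℚ) < (t : ℚ) := by rw [← ht]; positivity
    exact_mod_cast this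
  have htlt : t < 1 := by
    have h1 : (t : ℚ) < 1 := by
      have h2 : (z i0 : ℚ) < ((m i0 / d : ℕ) : ℚ) := by
        have h3 : z i0 < ((m i0 / d : ℕ) : ℤ) := by
          have := hb1 i0
          simp only [z]; omega
        have h3' := (Int.cast_lt (R := ℚ)).2 h3
        rwa [Int.cast_natCast] at h3'
      have h4 : ((m i0 / d : ℕ) : ℚ) * d = m i0 := by
        exact_mod_cast Nat.div_mul_cancel (hdvd i0)
      rw [hc i0] at h2
      have h5 : c * (m i0 : ℚ) * d < ((m i0 / d : ℕ) : ℚ) * d := mul_lt_mul_of_pos_right h2 hdQ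
      rw [h4] at h5
      have h6 : (c * d) * (m i0 : ℚ) < 1 * (m i0 : ℚ) := by linarith
      have h7 := lt_of_mul_lt_mul_right h6 hmi0.le
      rw [← ht]; exact h7
    exact_mod_cast h1
  omega

/-- The connectedness step: below the reduced fibre some component meets the divisor positively. -/
theorem exists_pos_one {n : ℕ} (A : Fin n → Fin n → ℤ) (hA : ∀ i j, i ≠ j → 0 ≤ A i j)
    (hconn : ∀ I : Finset (Fin n), I.Nonempty → I ≠ Finset.univ → ∃ i ∈ I, ∃ j ∉ I, A i j ≠ 0)
    (b : Fin n → ℕ) (hb : ∀ i, b i ≤ 1) (hne : b ≠ fun _ => 1) {i0 : Fin n} (hi0 : b i0 = 1) :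
    ∃ i, b i < 1 ∧ 0 < ∑ k, (b k : ℤ) * A k i := by
  classical
  obtain ⟨i, hi, j, hj, hij⟩ := hconn (Finset.univ.filter fun i => b i = 1)
    ⟨i0, by simp [hi0]⟩ (by
      intro h
      apply hne
      funext i
      have : i ∈ Finset.univ.filter fun i => b i = 1 := by rw [h]; exact Finset.mem_univ i
      simpa using this)
  simp only [Finset.mem_filter, Finset.mem_univ, true_and] at hi hj
  have hjb : b j = 0 := by
    have := hb j
    omega
  refine ⟨j, by omega, ?_⟩
  have hne' : i ≠ j := by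
    rintro rfl
    exact hj hi
  have h1 : (b i : ℤ) * A i j ≤ ∑ k, (b k : ℤ) * A k j := by
    refine Finset.single_le_sum (f := fun k => (b k : ℤ) * A k j) (fun k _ => ?_) (Finset.mem_univ i)
    by_cases hk : k = j
    · subst hk
      simp [hjb]
    · exact mul_nonneg (by positivity) (hA k j hk)
  have h2 : 0 < A i j := lt_of_le_of_ne (hA i j hne') (Ne.symm hij)
  rw [hi] at h1
  push_cast at h1
  linarith

end Groth.Agent.ModelsG.H46.Chain
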