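import Groth.Agent.Dix.IdealModCartier

/-!
# Restriction of functions from `D + Γ` to `D`

* `pullSec_eq_zero_of_mem`: a section of the ideal module of `D` lying in `D · I_Γ` dies on `Γ`.
* `eq_zero_of_no_section`: if `I_D|_Γ` has no nonzero section then a global function on `D + Γ` which vanishes
  on `D` is zero.
-/

set_option autoImplicit false
universe u

open CategoryTheory CategoryTheory.Limits AlgebraicGeometry Opposite TopologicalSpace

namespace Groth.Agent.ModelsG.H46.SecInj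

open Groth.Agent.Dix.IdealModCartier Groth.Agent.Fdesc.LocGen

variable {X G : Scheme.{u}}

lemma pullSec_zero (ι : G ⟶ X) {M : X.Modules} (U : X.Opens) :
    pullSec ι (0 : Γ(M, U)) = 0 := by
  have h := pullSec_add ι (0 : Γ(M, U)) 0
  rw [add_zero] at h
  exact left_eq_add.1 h

lemma pullSec_neg (ι : G ⟶ X) {M : X.Modules} {U : X.Opens} (m : Γ(M, U)) :
    pullSec ι (-m) = - pullSec ι m := by
  rw [eq_neg_iff_add_eq_zero, ← pullSec_add, neg_add_cancel, pullSec_zero]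

lemma pullSec_sub (ι : G ⟶ X) {M : X.Modules} {U : X.Opens} (m n : Γ(M, U)) :
    pullSec ι (m - n) = pullSec ι m - pullSec ι n := by
  rw [sub_eq_add_neg, pullSec_add, pullSec_neg, sub_eq_add_neg]

lemma val_add (D : X.IdealSheafData) {U : X.Opens} (s t : Γ(ClSub.idealMod D, U)) :
    val D (s + t) = val D s + val D t :=
  map_add ((ClSub.idealModι D).app U).hom s t

lemma val_zero (D : X.IdealSheafData) (U : X.Opens) : val D (0 : Γ(ClSub.idealMod D, U)) = 0 :=
  map_zero ((ClSub.idealModι D).app U).hom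

lemma val_sub (D : X.IdealSheafData) {U : X.Opens} (s t : Γ(ClSub.idealMod D, U)) :
    val D (s - t) = val D s - val D t :=
  map_sub ((ClSub.idealModι D).app U).hom s t

/-- A section of `I_D` over an affine open with value in `I_D · I_Γ` restricts to zero on `Γ`. -/
lemma pullSec_eq_zero_of_mem (ι : G ⟶ X) [QuasiCompact ι] {D : X.IdealSheafData} (W : X.affineOpens)
    (τ : Γ(ClSub.idealMod D, W.1)) (h : val D τ ∈ D.ideal W * ι.ker.ideal W) :
    pullSec ι τ = 0 := by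
  have key : ∀ x ∈ D.ideal W * ι.ker.ideal W, ∃ τ : Γ(ClSub.idealMod D, W.1),
      val D τ = x ∧ pullSec ι τ = 0 := by
    intro x hx
    refine Submodule.smul_induction_on hx ?_ ?_
    · intro a ha q hq
      obtain ⟨τ, rfl⟩ := exists_val_eq D W ha
      refine ⟨q • τ, ?_, ?_⟩
      · rw [val_smul, smul_eq_mul, mul_comm]
      · rw [pullSec_smul]
        have h0 : (ι.app W.1).hom q = 0 := by
          rwa [Scheme.Hom.ker_apply, RingHom.mem_ker] at hq
        have h1 : (ι.app W.1 q : Γ(G, ι ⁻¹ᵁ W.1)) = 0 := h0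
        rw [h1, zero_smul]
    · rintro x y ⟨s, rfl, hs⟩ ⟨t, rfl, ht⟩
      exact ⟨s + t, val_add D s t, by rw [pullSec_add, hs, ht, add_zero]⟩
  obtain ⟨τ', h1, h2⟩ := key _ h
  rw [← val_injective D h1]
  exact h2

lemma app_ores (f : G ⟶ X) {U V : X.Opens} (h : V ≤ U) (a : Γ(X, U)) :
    (f.app V (ores h a) : Γ(G, f ⁻¹ᵁ V)) = ores (f.preimage_mono h) (f.app U a : Γ(G, f ⁻¹ᵁ U)) :=
  congr($(f.naturality (homOfLE h).op) a)

/-- If `I_D|_Γ` has no nonzero global section, a global function on `D + Γ` vanishing on `D` is zero. -/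
theorem eq_zero_of_no_section (ι : G ⟶ X) [QuasiCompact ι] {D : X.IdealSheafData}
    (hD : BlowUp.IsEffCartierIdeal D)
    (h0 : ∀ t : Γ((Scheme.Modules.pullback ι).obj (ClSub.idealMod D), ⊤), t = 0)
    {Z Z₀ : Scheme.{u}} (i : Z ⟶ X) (q : Z₀ ⟶ Z) [IsClosedImmersion i] [QuasiCompact (q ≫ i)]
    (hi : i.ker = D * ι.ker) (hj : (q ≫ i).ker = D) (s : Γ(Z, ⊤))
    (hs : q.appTop.hom s = 0) : s = 0 := by
  -- local lifts
  have hlift : ∀ U : X.affineOpens, ∃ d : Γ(X, U.1), (i.app U.1 d : Γ(Z, i ⁻¹ᵁ U.1)) =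
      ores le_top s := fun U => i.app_surjective U.1 U.2 _
  choose d hd using hlift
  have hdD : ∀ U, d U ∈ D.ideal U := by
    intro U
    have h1 : (q ≫ i).ker.ideal U = D.ideal U := by rw [hj]
    rw [← h1, Scheme.Hom.ker_apply, RingHom.mem_ker]
    change (q.app (i ⁻¹ᵁ U.1)).hom (i.app U.1 (d U)) = 0
    rw [hd U]
    refine (app_ores q (le_top : i ⁻¹ᵁ U.1 ≤ ⊤) s).trans ?_
    have h2 : (q.app ⊤ s : Γ(Z₀, q ⁻¹ᵁ ⊤)) = 0 := hs
    rw [h2, map_zero]
  have hval : ∀ U, ∃ σ : Γ(ClSub.idealMod D, U.1), val D σ = d U := fun U =>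
    exists_val_eq D U (hdD U)
  choose σ hσ using hval
  let M := (Scheme.Modules.pullback ι).obj (ClSub.idealMod D)
  let t : ∀ U : X.affineOpens, Γ(M, ι ⁻¹ᵁ U.1) := fun U => pullSec ι (σ U)
  have hE : ∀ U : X.affineOpens, (D * ι.ker).ideal U = D.ideal U * ι.ker.ideal U := fun U => by
    simp only [Scheme.IdealSheafData.ideal_mul, Pi.mul_apply]
  -- compatibility on affine opens
  have hres : ∀ (U V W : X.affineOpens) (hU : W.1 ≤ U.1) (hV : W.1 ≤ V.1),
      res M (ι.preimage_mono hU) (t U) = res M (ι.preimage_mono hV) (t V) := by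
    intro U V W hU hV
    change res _ _ (pullSec ι (σ U)) = res _ _ (pullSec ι (σ V))
    rw [res_pullSec ι hU, res_pullSec ι hV, ← sub_eq_zero, ← pullSec_sub]
    apply pullSec_eq_zero_of_mem ι W
    rw [val_sub, val_res, val_res, hσ, hσ, ← hE W, ← hi, Scheme.Hom.ker_apply, RingHom.mem_ker,
      map_sub, sub_eq_zero]
    have h1 := app_ores i hU (d U)
    have h2 := app_ores i hV (d V)
    refine h1.trans (Eq.trans ?_ h2.symm)
    rw [hd, hd, ores_ores, ores_ores]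
  have hcov : ∀ U : X.Opens, U ≤ ⨆ W : {W : X.affineOpens // W.1 ≤ U}, W.1.1 := by
    intro U x hx
    obtain ⟨W, hxW, hW⟩ := exists_affine_mem_le U x hx
    exact Opens.mem_iSup.2 ⟨⟨W, hW⟩, hxW⟩
  have hcov' : ∀ U : X.Opens, ι ⁻¹ᵁ U ≤ ⨆ W : {W : X.affineOpens // W.1 ≤ U}, ι ⁻¹ᵁ W.1.1 := by
    intro U x hx
    obtain ⟨W, hxW, hW⟩ := exists_affine_mem_le U (ι x) hx
    exact Opens.mem_iSup.2 ⟨⟨W, hW⟩, hxW⟩
  obtain ⟨T, hT⟩ := res_glue M (V := ⊤) (fun U : X.affineOpens => ι ⁻¹ᵁ U.1) (fun _ => le_top)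
    (by
      intro x _
      obtain ⟨W, hxW, -⟩ := exists_affine_mem_le (⊤ : X.Opens) (ι x) trivial
      exact Opens.mem_iSup.2 ⟨W, hxW⟩) t (by
      intro U V
      refine res_ext M (V := ι ⁻¹ᵁ U.1 ⊓ ι ⁻¹ᵁ V.1) (fun W : {W : X.affineOpens // W.1 ≤ U.1 ⊓ V.1} => ι ⁻¹ᵁ W.1.1)
        (fun W => le_inf (ι.preimage_mono (W.2.trans inf_le_left))
          (ι.preimage_mono (W.2.trans inf_le_right))) (hcov' (U.1 ⊓ V.1)) fun W => ?_
      rw [res_res, res_res]
      exact hres U V W.1 (W.2.trans inf_le_left) (W.2.trans inf_le_right))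
  have hT0 : T = 0 := h0 T
  have ht0 : ∀ U, t U = 0 := fun U => by rw [← hT U, hT0, map_zero]
  -- vanishing near every point
  have hloc : ∀ x : X, ∃ U : X.affineOpens, x ∈ U.1 ∧ (ores le_top s : Γ(Z, i ⁻¹ᵁ U.1)) = 0 := by
    intro x
    obtain ⟨U, a, hxU, ha⟩ := exists_genOn hD x
    refine ⟨U, hxU, ?_⟩
    have haU := ha U le_rfl
    rw [ores_refl] at haU
    obtain ⟨g, hg⟩ := exists_val_eq D U (a := a) (haU.2 ▸ Ideal.mem_span_singleton_self a)
    have hgen : IsGen g := isGen_of_genOn (hg.symm ▸ ha)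
    obtain ⟨c, hc⟩ := hgen.exists_eq (σ U)
    have h1 : (ι.app U.1 c : Γ(G, ι ⁻¹ᵁ U.1)) = 0 := by
      have h2 := ht0 U
      change pullSec ι (σ U) = 0 at h2
      rw [hc, pullSec_smul] at h2
      apply (hgen.pullSec ι).ext
      rw [h2, zero_smul]
    have h3 : c ∈ ι.ker.ideal U := by
      rw [Scheme.Hom.ker_apply, RingHom.mem_ker]
      exact h1
    have h4 : d U ∈ (D * ι.ker).ideal U := by
      rw [← hσ, hc, val_smul, hE, mul_comm c]
      exact Ideal.mul_mem_mul (val_mem D U g) h3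
    rw [← hi, Scheme.Hom.ker_apply, RingHom.mem_ker] at h4
    rw [← hd U]
    exact h4
  choose U hxU hU using hloc
  refine ores_ext (X := Z) (V := ⊤) (fun x : X => i ⁻¹ᵁ (U x).1) (fun _ => le_top) (fun z _ =>
    Opens.mem_iSup.2 ⟨i z, hxU (i z)⟩) fun x => ?_
  rw [hU x, map_zero]

end Groth.Agent.ModelsG.H46.SecInj
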