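import Groth.Prelude.Def_ArSurf
import Groth.Agent.ModelsG.H46.SecInj
import Groth.Agent.Dix.InterNum
import Groth.Agent.S1518
import Mathlib.AlgebraicGeometry.Morphisms.Proper
import Mathlib.RingTheory.IntegralClosure.IsIntegralClosure.Basic

/-!
# Global functions on `D + Γ` form a field if those on `D` do and `(D · Γ) > 0`

* `sec_eq_zero_of_deg_neg`: an invertible module of negative degree on a proper integral curve has no section.
* `isField_of_injective`: if `Z₀ ⟶ Z ⟶ Spec R` with the composite universally closed, `Γ(Z₀)` a field and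
  `Γ(Z) → Γ(Z₀)` injective then `Γ(Z)` is a field.
* `isField_subscheme_mul`: the step `D ↦ D + Γ`.
* `isField_ker_subscheme`: the case of a single vertical component.
-/

set_option autoImplicit false
universe u

open CategoryTheory CategoryTheory.Limits AlgebraicGeometry Opposite TopologicalSpace

namespace Groth.Agent.ModelsG.H46.FieldStep

open Groth.Agent.Dix.IdealModCartier Groth.Agent.Fdesc.LocGen

/-- An invertible module of negative degree on a proper integral curve has no nonzero section. -/
theorem sec_eq_zero_of_deg_neg (k : Type u) [Field k] (G : Scheme.{u}) [G.Over (Spec (CommRingCat.of k))]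
    [IsIntegral G] [IsProper (G ↘ (Spec (CommRingCat.of k)))] (hdim : topologicalKrullDim G = 1)
    (L : G.Modules) (hL : PicF.IsInvertible L) (hneg : Curv2.deg k G L 1 < 0) (t : Γ(L, ⊤)) : t = 0 := by
  by_contra h
  have h1 := Groth.Agent.S1518.result k G hdim L hL (homOf t) (by
    intro h0
    apply h
    have h2 := sec_homOf t ⊤
    rw [res_refl, h0] at h2
    exact h2.symm)
  omega

/-- Descent of being a field along an injective restriction map. -/
theorem isField_of_injective {R : Type u} [CommRing R] {Z Z₀ : Scheme.{u}} (q : Z₀ ⟶ Z)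
    (g : Z ⟶ Spec (CommRingCat.of R)) [UniversallyClosed (q ≫ g)] (h0 : IsField Γ(Z₀, ⊤))
    (hinj : Function.Injective q.appTop.hom) : IsField Γ(Z, ⊤) := by
  have h1 : (q ≫ g).appTop.hom.IsIntegral := isIntegral_appTop_of_universallyClosed (q ≫ g)
  have h2 : (q.appTop.hom.comp g.appTop.hom).IsIntegral := by
    have h3 : (q ≫ g).appTop.hom = q.appTop.hom.comp g.appTop.hom := by
      rw [Scheme.Hom.comp_appTop]; rfl
    rwa [h3] at h1
  have h4 : q.appTop.hom.IsIntegral := RingHom.IsIntegral.tower_top _ _ h2
  algebraize [q.appTop.hom]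
  exact isField_of_isIntegral_of_isField hinj h0

section Surf

variable {R : Type u} [CommRing R] [IsDomain R] [IsDiscreteValuationRing R]

variable {X : Over (Spec (CommRingCat.of R))}

lemma isProper_curve [IsProper X.hom] (Γ : ArSurf.VertComp R X) :
    IsProper (Γ.curve.left ↘ Spec (CommRingCat.of (IsLocalRing.ResidueField R))) := by
  have h1 : IsProper (Γ.curve.hom ≫ Spec.map (CommRingCat.ofHom (IsLocalRing.residue R))) := by
    rw [← Γ.w]
    infer_instance
  have h2 : IsSeparated (Spec.map (CommRingCat.ofHom (IsLocalRing.residue R))) := inferInstance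
  exact IsProper.of_comp Γ.curve.hom (Spec.map (CommRingCat.ofHom (IsLocalRing.residue R)))

/-- The global functions of a vertical component form a field. -/
lemma isField_curve [IsProper X.hom] (Γ : ArSurf.VertComp R X) : IsField Γ(Γ.curve.left, ⊤) := by
  have := isProper_curve Γ
  exact isField_of_universallyClosed (IsLocalRing.ResidueField R)
    (Γ.curve.left ↘ Spec (CommRingCat.of (IsLocalRing.ResidueField R)))

/-- The global functions of a vertical component form a field. -/
theorem isField_ker_subscheme [IsProper X.hom] (Γ : ArSurf.VertComp R X) :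
    IsField Γ(Γ.ι.ker.subscheme, ⊤) := by
  have h : IsIso Γ.ι.toImage := inferInstance
  let e : Γ.curve.left ≅ Γ.ι.image := asIso Γ.ι.toImage
  let E : Γ(Γ.ι.image, ⊤) ≃+* Γ(Γ.curve.left, ⊤) :=
    (Scheme.Γ.mapIso e.op).commRingCatIsoToRingEquiv
  exact E.toMulEquiv.isField (isField_curve Γ)

/-- The step `D ↦ D + Γ` when `(D · Γ) > 0`. -/
theorem isField_subscheme_mul [IsProper X.hom] (Γ : ArSurf.VertComp R X) {D : X.left.IdealSheafData}
    (hD : BlowUp.IsEffCartierIdeal D) (hneg : ArSurf.inter R X (ClSub.idealMod D) Γ < 0)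
    (h0 : IsField Γ(D.subscheme, ⊤)) : IsField Γ((D * Γ.ι.ker).subscheme, ⊤) := by
  have := isProper_curve Γ
  have hle : D * Γ.ι.ker ≤ D := by
    intro U
    simp only [Scheme.IdealSheafData.ideal_mul, Pi.mul_apply]
    exact Ideal.mul_le_left
  let q := Scheme.IdealSheafData.inclusion hle
  have hq : q ≫ (D * Γ.ι.ker).subschemeι = D.subschemeι :=
    Scheme.IdealSheafData.inclusion_subschemeι hle
  have : QuasiCompact (q ≫ (D * Γ.ι.ker).subschemeι) := by rw [hq]; infer_instance
  have hsec : ∀ t : Γ((Scheme.Modules.pullback Γ.ι).obj (ClSub.idealMod D), ⊤), t = 0 := by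
    have h1 : ArSurf.inter R X (ClSub.idealMod D) Γ =
        Curv2.deg (IsLocalRing.ResidueField R) Γ.curve.left
          ((Scheme.Modules.pullback Γ.ι).obj (ClSub.idealMod D)) 1 :=
      Dix.InterNum.curveDeg_eq _ _ Γ.dim_eq _
    rw [h1] at hneg
    exact sec_eq_zero_of_deg_neg _ _ Γ.dim_eq _
      (isInvertible_pullback Γ.ι (isInvertible_idealMod hD)) hneg
  have hinj : Function.Injective q.appTop.hom := by
    rw [injective_iff_map_eq_zero]
    intro s hs
    exact SecInj.eq_zero_of_no_section Γ.ι hD hsec (D * Γ.ι.ker).subschemeι q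
      (Scheme.IdealSheafData.ker_subschemeι _) (by rw [hq, Scheme.IdealSheafData.ker_subschemeι]) s hs
  have : UniversallyClosed (q ≫ (D * Γ.ι.ker).subschemeι ≫ X.hom) := by
    rw [← Category.assoc, hq]; infer_instance
  exact isField_of_injective (R := R) q ((D * Γ.ι.ker).subschemeι ≫ X.hom) h0 hinj

end Surf

end Groth.Agent.ModelsG.H46.FieldStep
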