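import Groth.Agent.ModelsG.H46.Chain
import Groth.Agent.ModelsG.H46.FieldStep
import Groth.Agent.Dix.IdealQuot
import Groth.Agent.FlatA.SteinNoeth

/-!
# The chain of divisors from the reduced fibre to the primitive fibre, in terms of the intersection numbers
-/

set_option autoImplicit false
universe u

open CategoryTheory CategoryTheory.Limits AlgebraicGeometry Opposite TopologicalSpace

namespace Groth.Agent.ModelsG.H46.ChainMain

open Groth.Agent.Dix.IdealModCartier Groth.Agent.Divis.EffCartier Groth.Agent.Dix.IdealQuot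

variable {R : Type u} [CommRing R] [IsDomain R] [IsDiscreteValuationRing R]

variable {X : Over (Spec (CommRingCat.of R))}

/-- The numerical form of the step. `hdeg` expresses the additivity of the intersection numbers. -/
theorem main [IsProper X.hom] {n : ℕ} (Γ : Fin n → ArSurf.VertComp R X)
    (hP : ∀ i, BlowUp.IsEffCartierIdeal (Γ i).ι.ker) (hn : 0 < n)
    (A : Fin n → Fin n → ℤ)
    (hdeg : ∀ (b : Fin n → ℕ) (i : Fin n),
      ArSurf.inter R X (ClSub.idealMod (∏ k, (Γ k).ι.ker ^ b k)) (Γ i) = - ∑ k, (b k : ℤ) * A k i)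
    (m : Fin n → ℕ) (hm : ∀ i, 0 < m i)
    (hoff : ∀ i j, i ≠ j → 0 ≤ A i j)
    (hsum : ∀ j, ∑ i, (m i : ℤ) * A i j = 0)
    (hconn : ∀ I : Finset (Fin n), I.Nonempty → I ≠ Finset.univ → ∃ i ∈ I, ∃ j ∉ I, A i j ≠ 0)
    (hle : ∀ z : Fin n → ℤ, ∑ q : Fin n × Fin n, z q.1 * z q.2 * A q.1 q.2 ≤ 0)
    (hneg : ∀ z : Fin n → ℤ, ∑ q : Fin n × Fin n, z q.1 * z q.2 * A q.1 q.2 = 0 →
      ∃ c : ℚ, ∀ i, (z i : ℚ) = c * (m i : ℚ)) :
    ∃ (s : ℕ) (a : Fin (s + 1) → Fin n → ℕ), (a 0 = fun _ => 1) ∧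
      (a (Fin.last s) = fun i => m i / Finset.univ.gcd m) ∧
      (∀ j : Fin s, ∃ i, a j.succ = a j.castSucc + Pi.single i 1) ∧
      ∀ j, IsField Γ((∏ i, (Γ i).ι.ker ^ a j i).subscheme, ⊤) := by
  classical
  have hmul : ∀ (b : Fin n → ℕ) (i : Fin n), (∏ k, (Γ k).ι.ker ^ (b + Pi.single i 1 : Fin n → ℕ) k) =
      (∏ k, (Γ k).ι.ker ^ b k) * (Γ i).ι.ker := by
    intro b i
    simp only [Pi.add_apply, pow_add, Finset.prod_mul_distrib]
    congr 1
    rw [Finset.prod_eq_single i]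
    · simp
    · intro k _ hk
      rw [Pi.single_eq_of_ne hk, pow_zero]
    · simp
  have step : ∀ (b : Fin n → ℕ) (i : Fin n), 0 < ∑ k, (b k : ℤ) * A k i →
      IsField Γ((∏ k, (Γ k).ι.ker ^ b k).subscheme, ⊤) →
      IsField Γ((∏ k, (Γ k).ι.ker ^ (b + Pi.single i 1 : Fin n → ℕ) k).subscheme, ⊤) := by
    intro b i hpos h0
    rw [hmul]
    refine FieldStep.isField_subscheme_mul (Γ i) (isEff_prod _ hP _ b) ?_ h0
    rw [hdeg]
    omega
  -- first phase: up to the reduced fibre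
  let i0 : Fin n := ⟨0, hn⟩
  have hone : IsField Γ((∏ k, (Γ k).ι.ker ^ (fun _ => 1 : Fin n → ℕ) k).subscheme, ⊤) := by
    obtain ⟨s, a, -, hl, -, hPa⟩ := Chain.exists_chain (fun _ => 1 : Fin n → ℕ)
      (fun b => b i0 = 1 ∧ IsField Γ((∏ k, (Γ k).ι.ker ^ b k).subscheme, ⊤)) (by
        rintro b hb hne ⟨hb0, hF⟩
        obtain ⟨i, hi, hpos⟩ := Chain.exists_pos_one A hoff hconn b hb hne hb0
        refine ⟨i, hi, ?_, step b i hpos hF⟩
        have : i0 ≠ i := by rintro rfl; omega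
        simp [Pi.single_eq_of_ne this, hb0])
      _ (Pi.single i0 1) (by
        intro k
        by_cases hk : k = i0
        · subst hk; simp
        · simp [Pi.single_eq_of_ne hk]) rfl ⟨by simp, by
          have h1 := hmul 0 i0
          have h2 : (∏ k, (Γ k).ι.ker ^ (0 : Fin n → ℕ) k) = 1 :=
            Finset.prod_eq_one fun k _ => pow_zero _
          rw [zero_add, h2, one_mul] at h1
          rw [h1]
          exact FieldStep.isField_ker_subscheme (Γ i0)⟩
    have := hPa (Fin.last s)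
    rw [hl] at this
    exact this.2
  -- second phase
  have hd0 : 0 < Finset.univ.gcd m := Nat.pos_of_ne_zero fun h => by
    have h1 : Finset.univ.gcd m ∣ m i0 := Finset.gcd_dvd (Finset.mem_univ i0)
    rw [h, zero_dvd_iff] at h1
    exact (hm i0).ne' h1
  obtain ⟨s, a, h0, hl, hst, hPa⟩ := Chain.exists_chain (fun i => m i / Finset.univ.gcd m)
    (fun b => (∀ i, 1 ≤ b i) ∧ IsField Γ((∏ k, (Γ k).ι.ker ^ b k).subscheme, ⊤)) (by
      rintro b hb hne ⟨hb1, hF⟩
      obtain ⟨i, hi, hpos⟩ := Chain.exists_pos m hm A hsum hneg hle b hb1 hb hne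
      refine ⟨i, hi, fun k => ?_, step b i hpos hF⟩
      have := hb1 k
      simp only [Pi.add_apply]
      omega)
    _ (fun _ => 1) (fun i => (Nat.one_le_div_iff hd0).2
      (Nat.le_of_dvd (hm i) (Finset.gcd_dvd (Finset.mem_univ i)))) rfl ⟨fun _ => le_rfl, hone⟩
  exact ⟨s, a, h0, hl, hst, fun j => (hPa j).2⟩

omit [IsDomain R] [IsDiscreteValuationRing R] in
/-- Finiteness over `R` of the global functions of a closed subscheme. -/
theorem finite_subscheme [IsNoetherianRing R] {X : Scheme.{u}} (p : X ⟶ Spec (CommRingCat.of R))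
    [IsProper p] (I : X.IdealSheafData) :
    ((I.subschemeι ≫ p).appTop.hom.comp (Scheme.ΓSpecIso (CommRingCat.of R)).inv.hom).Finite :=
  FlatA.SteinNoeth.finite_toGlobal R _ (I.subschemeι ≫ p)

end Groth.Agent.ModelsG.H46.ChainMain
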