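import Groth.Agent.Models.H65.PicDeg
import Groth.Agent.Dix.IdealModCartier
import Groth.Agent.Dix.IdealQuot

/-!
# Intersection numbers of products of effective Cartier ideals
-/

set_option autoImplicit false
universe u

open CategoryTheory CategoryTheory.Limits AlgebraicGeometry Opposite TopologicalSpace

namespace Groth.Agent.ModelsG.H46.InterProd

open Groth.Agent.Dix.IdealModCartier Groth.Agent.Divis.EffCartier Groth.Agent.Dix.IdealQuot
open Groth.Agent.Models.H65.PicDeg

variable {R : Type u} [CommRing R] [IsDomain R] [IsDiscreteValuationRing R]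

variable {X : Over (Spec (CommRingCat.of R))} [IsProper X.hom]

lemma inter_idealMod_mul (Γ : ArSurf.VertComp R X) {D E : X.left.IdealSheafData}
    (hD : BlowUp.IsEffCartierIdeal D) (hE : BlowUp.IsEffCartierIdeal E) :
    ArSurf.inter R X (ClSub.idealMod (D * E)) Γ =
      ArSurf.inter R X (ClSub.idealMod D) Γ + ArSurf.inter R X (ClSub.idealMod E) Γ := by
  obtain ⟨e⟩ := idealMod_mul hD hE
  rw [← inter_congr e, inter_tensor (isInvertible_idealMod hD) (isInvertible_idealMod hE)]

lemma inter_idealMod_one (Γ : ArSurf.VertComp R X) :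
    ArSurf.inter R X (ClSub.idealMod (1 : X.left.IdealSheafData)) Γ = 0 := by
  have h : BlowUp.IsEffCartierIdeal (1 : X.left.IdealSheafData) := by
    rw [Scheme.IdealSheafData.one_eq_top]; exact isEff_top
  have := inter_idealMod_mul Γ h h
  rw [one_mul] at this
  linarith

lemma inter_idealMod_pow (Γ : ArSurf.VertComp R X) {D : X.left.IdealSheafData}
    (hD : BlowUp.IsEffCartierIdeal D) (n : ℕ) :
    ArSurf.inter R X (ClSub.idealMod (D ^ n)) Γ = n * ArSurf.inter R X (ClSub.idealMod D) Γ := by
  induction n with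
  | zero => simpa using inter_idealMod_one Γ
  | succ n ih => rw [pow_succ, inter_idealMod_mul Γ (isEff_pow hD n) hD, ih]; push_cast; ring

lemma inter_idealMod_prod (Γ : ArSurf.VertComp R X) {ι : Type*}
    (P : ι → X.left.IdealSheafData) (hP : ∀ i, BlowUp.IsEffCartierIdeal (P i)) (S : Finset ι)
    (d : ι → ℕ) : ArSurf.inter R X (ClSub.idealMod (∏ i ∈ S, P i ^ d i)) Γ =
      ∑ i ∈ S, (d i : ℤ) * ArSurf.inter R X (ClSub.idealMod (P i)) Γ := by
  classical
  induction S using Finset.induction_on with
  | empty => simpa using inter_idealMod_one Γ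
  | insert t S htS ih =>
    rw [Finset.prod_insert htS, Finset.sum_insert htS, inter_idealMod_mul Γ (isEff_pow (hP t) _)
      (isEff_prod P hP S d), inter_idealMod_pow Γ (hP t), ih]

lemma inter_of_isInverseOf (Γ : ArSurf.VertComp R X) {L M : X.left.Modules}
    (h : ClSub.IsInverseOf L M) : ArSurf.inter R X M Γ = - ArSurf.inter R X L Γ := by
  obtain ⟨hL, hM⟩ := isInvertible_of_isInverseOf h
  have h1 := congrArg (deg Γ) (mk_of_isInverseOf hL hM h)
  rw [deg_inv, deg_mk, deg_mk] at h1
  linarith

/-- The intersection number of `O(-Σ b_k Γ_k)` in terms of inverses `L_k` of the ideals. -/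
theorem inter_idealMod_prod_of_inverse (Γ : ArSurf.VertComp R X) {n : ℕ}
    (P : Fin n → X.left.IdealSheafData) (L : Fin n → X.left.Modules)
    (hL : ∀ i, ClSub.IsInverseOf (L i) (ClSub.idealMod (P i))) (b : Fin n → ℕ) :
    ArSurf.inter R X (ClSub.idealMod (∏ i, P i ^ b i)) Γ =
      - ∑ i, (b i : ℤ) * ArSurf.inter R X (L i) Γ := by
  rw [inter_idealMod_prod Γ P (fun i => isEffCartierIdeal_of_isInverseOf (hL i)), ← Finset.sum_neg_distrib]
  refine Finset.sum_congr rfl fun i _ => ?_
  rw [inter_of_isInverseOf Γ (hL i)]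
  ring

end Groth.Agent.ModelsG.H46.InterProd
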