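import Groth.Agent.ModelsG.H46.ChainMain
import Groth.Agent.ModelsG.H46.InterProd
import Groth.Prelude.Def_ModelsG

/-!
# S3323 conditional on the numerical facts S3316-S3320 (for one model)
-/

set_option autoImplicit false
universe u

open CategoryTheory CategoryTheory.Limits AlgebraicGeometry

namespace Groth.Agent.ModelsG.H46.S3323Cond

variable {R : Type u} [CommRing R] [IsDomain R] [IsDiscreteValuationRing R]

/-- The chain from the reduced fibre, given the numerical properties of the components. -/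
theorem main {X : Scheme.{u}} (p : X ⟶ Spec (CommRingCat.of R)) [IsProper p]
    {n : ℕ} (Γ : Fin n → ArSurf.VertComp R (Over.mk p)) (hn : 0 < n)
    (L : Fin n → X.Modules) (hL : ∀ i, ClSub.IsInverseOf (L i) (ClSub.idealMod (Γ i).ι.ker))
    (hmult : ∀ i, 0 < Models.mult R (Over.mk p) (Γ i))
    (hsymm : ∀ i j, ArSurf.inter R (Over.mk p) (L j) (Γ i) = ArSurf.inter R (Over.mk p) (L i) (Γ j))
    (hoff : ∀ i j, i ≠ j → 0 ≤ ArSurf.inter R (Over.mk p) (L j) (Γ i))
    (hsum : ∀ j, ∑ i, (Models.mult R (Over.mk p) (Γ i) : ℤ) *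
      ArSurf.inter R (Over.mk p) (L j) (Γ i) = 0)
    (hconn : ∀ I : Finset (Fin n), I.Nonempty → I ≠ Finset.univ →
      ∃ i ∈ I, ∃ j ∉ I, ArSurf.inter R (Over.mk p) (L j) (Γ i) ≠ 0)
    (hneg : ∀ a : Fin n → ℤ,
      (∑ q : Fin n × Fin n, a q.1 * a q.2 * ArSurf.inter R (Over.mk p) (L q.2) (Γ q.1)) ≤ 0 ∧
      ((∑ q : Fin n × Fin n, a q.1 * a q.2 * ArSurf.inter R (Over.mk p) (L q.2) (Γ q.1)) = 0 ↔
        ∃ c : ℚ, ∀ i, (a i : ℚ) = c * (Models.mult R (Over.mk p) (Γ i) : ℚ))) :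
    ∃ (s : ℕ) (a : Fin (s + 1) → Fin n → ℕ), (a 0 = fun _ => 1) ∧
      (a (Fin.last s) = fun i => Models.mult R (Over.mk p) (Γ i) / Models.multGcd R (Over.mk p) Γ) ∧
      (∀ j : Fin s, ∃ i, a j.succ = a j.castSucc + Pi.single i 1) ∧
      ∀ j, IsField ↑(Γ((∏ i, (Γ i).ι.ker ^ a j i).subscheme, ⊤)) ∧
        (((∏ i, (Γ i).ι.ker ^ a j i).subschemeι ≫ p).appTop.hom.comp
          (Scheme.ΓSpecIso (CommRingCat.of R)).inv.hom).Finite := by
  have hp : IsProper (Over.mk p).hom := ‹IsProper p›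
  obtain ⟨s, a, h0, hl, hst, hF⟩ := ChainMain.main (X := Over.mk p) Γ
    (fun i => Dix.IdealModCartier.isEffCartierIdeal_of_isInverseOf (hL i)) hn
    (fun i j => ArSurf.inter R (Over.mk p) (L j) (Γ i))
    (fun b i => by
      rw [InterProd.inter_idealMod_prod_of_inverse (Γ i) _ L hL b]
      congr 1
      exact Finset.sum_congr rfl fun k _ => by rw [hsymm i k])
    (fun i => Models.mult R (Over.mk p) (Γ i)) hmult hoff hsum hconn (fun z => (hneg z).1)
    (fun z hz => (hneg z).2.1 hz)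
  exact ⟨s, a, h0, hl, hst, fun j => ⟨hF j, ChainMain.finite_subscheme p _⟩⟩

end Groth.Agent.ModelsG.H46.S3323Cond
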